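import Mathlib
import Cfsg.Agent.Glaub.Index
import Cfsg.Agent.PLocal.PStable

/-! Normal `p`-complement criteria through the automizer of a characteristic functor. -/

set_option autoImplicit false

namespace Cfsg.Agent.LocalEven

open Subgroup

universe u

theorem npc_of_automizer {p : ℕ} [Fact p.Prime] {W : ∀ (Q : Type u) [Group Q], Subgroup Q}
    (hW : IsCharPFunctor p W)
    (hd : ∀ (X : Type u) [Group X] [Finite X] (S : Sylow p X), Transfer.ThompsonMin p X S →
      (inducedFunctor W (S : Subgroup X)).Normal ∧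
        (S : Subgroup X) ⊓ centralizer (inducedFunctor W (S : Subgroup X) : Set X) ≤
          inducedFunctor W (S : Subgroup X))
    (G : Type u) [Group G] [Finite G] (S : Sylow p G)
    (h : ∀ g ∈ normalizer (inducedFunctor W (S : Subgroup G) : Set G), (orderOf g).Coprime p →
      g ∈ centralizer (inducedFunctor W (S : Subgroup G) : Set G)) :
    HasNormalPComplement p G := by
  refine Transfer.thompson_reduction (fun _ _ => True) (fun _ _ _ _ _ => trivial)
    (fun _ _ _ _ _ _ => trivial)
    (fun X _ S => ∀ g ∈ normalizer (inducedFunctor W (S : Subgroup X) : Set X),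
      (orderOf g).Coprime p → g ∈ centralizer (inducedFunctor W (S : Subgroup X) : Set X))
    ?_ ?_ ?_ ?_ G trivial S h
  · intro X _ _ S hS hC g hg hgp
    haveI : Nontrivial (S : Subgroup X) := (nontrivial_iff_ne_bot _).2 hS
    have h1 : HasNormalPComplement p (normalizer (inducedFunctor W (S : Subgroup X) : Set X)) :=
      hC (W (S : Subgroup X)) (Transfer.characteristic_of_isCharPFunctor hW S.2)
        (hW.1 _ S.2 inferInstance)
    have hp : IsPGroup p (inducedFunctor W (S : Subgroup X)) :=
      S.2.to_le (Transfer.inducedFunctor_le _)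
    have h2 := Transfer.mem_centralizer_of_hasNormalPComplement h1
      (Q := (inducedFunctor W (S : Subgroup X)).subgroupOf _) (isPGroup_subgroupOf hp)
      (g := ⟨g, hg⟩) (le_top.trans (normalizer_eq_top _).ge (mem_top _))
      (by rwa [← orderOf_coe])
    intro x hx
    exact congrArg Subtype.val (h2 ⟨x, le_normalizer hx⟩ hx)
  · intro X _ _ S H hSH h1 g hg hgp
    have e := Transfer.inducedFunctor_subtype hW S.2 hSH
    have h2 := Glaub.map_mem_norm H.subtype hg
    refine Glaub.mem_cent_of_map (f := H.subtype) (subtype_injective _) ?_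
    erw [e] at h2 ⊢
    exact h1 _ h2 (by rwa [coe_subtype, orderOf_coe])
  · intro X _ _ S N _ hN h1 g hg hgp
    have e := Transfer.inducedFunctor_mk' hW S.2 N hN
    have hp : IsPGroup p (inducedFunctor W (S : Subgroup X)) :=
      S.2.to_le (Transfer.inducedFunctor_le _)
    erw [e] at hg ⊢
    rw [Glaub.norm_map_mk' hp N hN] at hg
    obtain ⟨x, hx, rfl⟩ := hg
    obtain ⟨k, hk⟩ := Glaub.exists_pow_mem_of_coprime h1 hx
    refine Glaub.mem_of_pow_mem_of_coprime (k := k) ?_ hgp
    rw [← map_pow]
    exact Glaub.map_mem_cent _ hk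
  · intro X _ _ S _ h1 hT
    obtain ⟨hn, hc⟩ := hd X S hT
    have hp : IsPGroup p (inducedFunctor W (S : Subgroup X)) :=
      S.2.to_le (Transfer.inducedFunctor_le _)
    have hQ : IsPGroup p (pCore p X) := Core.pCore_isPGroup p
    refine hT.not_isPGroup (Transfer.isPGroup_of_pResidual_eq_bot (eq_bot_iff.2
      (Transfer.pResidual_le_iff.2 fun g hg => ?_)))
    have h2 := h1 g (le_top.trans (normalizer_eq_top _).ge (mem_top g)) hg
    have h3 := Glaub.mem_cent_of_selfcent hQ (Core.le_pCore hn hp)
      ((inf_le_inf_right _ (Glaub.pCore_le_of_isSylowIn (isSylowIn_top S))).trans hc) h2 hg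
    exact mem_bot.2 (Glaub.eq_one_of_mem_pgroup hQ (hT.centralizer_le h3) hg)

theorem normalizerPStable_of_noQuadPair {p : ℕ} [Fact p.Prime] {G : Type*} [Group G] [Finite G]
    (h : PLocal.NoQuadPair p G) : IsNormalizerPStable p G := fun _ hP g hg hq =>
  h.map_le_pCore hP hq ⟨⟨g, hg⟩, mem_zpowers g, rfl⟩

theorem npc_of_automizer_kLo {p : ℕ} [Fact p.Prime] (hp : p ≠ 2)
    (G : Type u) [Group G] [Finite G] (S : Sylow p G)
    (h : ∀ g ∈ normalizer (Glaub.kLo (S : Subgroup G) : Set G), (orderOf g).Coprime p →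
      g ∈ centralizer (Glaub.kLo (S : Subgroup G) : Set G)) :
    HasNormalPComplement p G := by
  refine npc_of_automizer Glaub.charP_kInfLower (fun X _ _ T hT => ?_) G S
    (by rwa [Glaub.ind_kInfLower])
  rw [Glaub.ind_kInfLower]
  exact ⟨(Glaub.normal_of_stable (isSylowIn_top T) hT.centralizer_le fun N _ =>
    normalizerPStable_of_noQuadPair ((PLocal.noQuadPair_of_thompsonMin hp hT).quotient N)).1,
    Glaub.cent_kLo_le T.2⟩

end Cfsg.Agent.LocalEven
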