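import Mathlib
import Cfsg.Agent.LocalEven.CD

/-! A replacement argument for minimal centrally large subgroups. -/

set_option autoImplicit false

namespace Cfsg.Agent.LocalEven

open Subgroup Cfsg
open scoped Pointwise commutatorElement

variable {G : Type*} [Group G] [Finite G]

theorem mcl_replace {Q M : Subgroup G} (hQ : MCL Q) {a : G} (hM : IsMulCommutative M)
    (hn : centralizer (Q : Set G) ≤ normalizer (M : Set G))
    (ha : ∀ y ∈ centralizer (Q : Set G), a * y * a⁻¹ * y⁻¹ ∈ M) :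
    ∃ Q' : Subgroup G, MCL Q' ∧
      centralizer (Q' : Set G) ⊓ centralizer (Q : Set G) =
        cj a (centralizer (Q : Set G)) ⊓ centralizer (Q : Set G) ∧
      ∀ y ∈ centralizer (Q : Set G), a * y * a⁻¹ * y⁻¹ ∈ centralizer (Q' : Set G) := by
  have hQ1 := hQ.cj a
  set Y := centralizer (Q : Set G) with hY
  have eY1 : centralizer (cj a Q : Set G) = cj a Y := (cj_centralizer a Q).symm
  set Y₁ := cj a Y with hY₁
  have cY : centralizer (Y : Set G) = Q := hQ.1.1.centralizer.2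
  have cY1 : centralizer (Y₁ : Set G) = cj a Q := by rw [← eY1]; exact hQ1.1.1.centralizer.2
  have hYQ : Y ≤ Q := hQ.1.2
  have hY1Q : Y₁ ≤ cj a Q := cj_mono a hYQ
  have i1 : Y ⊓ cj a Q ≤ Y₁ := eY1 ▸ MCL.centralizer_inf_le hQ.1 hQ1
  have i2 : Y₁ ⊓ Q ≤ Y := by rw [← eY1]; exact MCL.centralizer_inf_le hQ1.1 hQ
  have hprod : ((Y ⊔ Y₁ : Subgroup G) : Set G) = (Y : Set G) * (Y₁ : Set G) :=
    hQ.1.1.centralizer.1.coe_sup (hQ.1.1.centralizer.1.cj a)
  have cL : centralizer ((Y ⊔ Y₁ : Subgroup G) : Set G) = Q ⊓ cj a Q := by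
    rw [centralizer_sup', cY, cY1]
  set D := M ⊓ (Y ⊔ Y₁) with hD
  have hDc : D ≤ centralizer (D : Set G) :=
    le_centralizer_iff_isMulCommutative.2 (isMulCommutative_of_le hM inf_le_left)
  have hYD : Y ≤ normalizer (D : Set G) := le_normalizer_inf hn (le_sup_left.trans le_normalizer)
  have hmem : ∀ y ∈ Y, a * y * a⁻¹ * y⁻¹ ∈ D := fun y hy => ⟨ha y hy,
    mul_mem (mem_sup_right (conj_mem_cj hy)) (mem_sup_left (inv_mem hy))⟩
  have hL : D ⊔ Y = Y ⊔ Y₁ := by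
    refine le_antisymm (sup_le inf_le_right le_sup_left) (sup_le le_sup_right fun x hx => ?_)
    obtain ⟨y, hy, rfl⟩ := mem_cj'.1 hx
    simpa using mul_mem (mem_sup_left (hmem y hy) : _ ∈ D ⊔ Y) (mem_sup_right hy)
  have hY0 : Y ⊓ Y₁ ≤ centralizer ((Y ⊔ Y₁ : Subgroup G) : Set G) := cL ▸ inf_le_inf hYQ hY1Q
  have hY0D : Y ⊓ Y₁ ≤ centralizer (D : Set G) :=
    hY0.trans (centralizer_le (inf_le_right : D ≤ Y ⊔ Y₁))
  have hDY : D ⊓ Y ≤ Y₁ := by
    refine le_trans (le_inf inf_le_right ?_) i1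
    have : D ⊓ Y ≤ centralizer ((D ⊔ Y : Subgroup G) : Set G) := by
      rw [centralizer_sup']; exact inf_le_inf hDc (hYQ.trans cY.ge)
    rw [hL, cL] at this
    exact this.trans inf_le_right
  set S := D ⊔ (Y ⊓ Y₁) with hS
  have hSL : S ≤ Y ⊔ Y₁ := sup_le inf_le_right (inf_le_left.trans le_sup_left)
  have hSc : S ≤ centralizer (S : Set G) := by
    rw [hS, centralizer_sup']
    exact le_inf (sup_le hDc hY0D) (sup_le (le_centralizer_iff.1 hY0D)
      (hY0.trans (centralizer_le (inf_le_left.trans le_sup_left : Y ⊓ Y₁ ≤ Y ⊔ Y₁))))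
  have c1 := Core.card_sup_mul_card_inf (hY0D.trans (centralizer_le_normalizer' D))
  have e1 : D ⊓ (Y ⊓ Y₁) = D ⊓ Y :=
    le_antisymm (inf_le_inf_left _ inf_le_left) (le_inf inf_le_left (le_inf inf_le_right hDY))
  rw [e1, ← hS] at c1
  have c2 := Core.card_sup_mul_card_inf hYD
  rw [hL] at c2
  have c3 := card_sup_of_coe_eq hprod
  rw [hY₁, card_cj, ← hY₁] at c3
  have hcard : Nat.card S = Nat.card Y := by
    have p1 : 0 < Nat.card (D ⊓ Y : Subgroup G) * Nat.card Y :=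
      Nat.mul_pos Nat.card_pos Nat.card_pos
    refine Nat.eq_of_mul_eq_mul_right p1 ?_
    calc Nat.card S * (Nat.card (D ⊓ Y : Subgroup G) * Nat.card Y)
        = (Nat.card D * Nat.card Y) * Nat.card (Y ⊓ Y₁ : Subgroup G) := by
          rw [← mul_assoc, c1]; ring
      _ = (Nat.card (Y ⊔ Y₁ : Subgroup G) * Nat.card (Y ⊓ Y₁ : Subgroup G)) *
          Nat.card (D ⊓ Y : Subgroup G) := by rw [← c2]; ring
      _ = _ := by rw [c3]; ring
  have hLQ : (Y ⊔ Y₁) ⊓ Q ≤ Y := by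
    rintro x ⟨hx, hxQ⟩
    obtain ⟨u, hu, v, hv, rfl⟩ := mem_sup_of_coe_eq hprod hx
    exact Y.mul_mem hu (i2 ⟨hv, by simpa using Q.mul_mem (Q.inv_mem (hYQ hu)) hxQ⟩)
  have hLQ1 : (Y ⊔ Y₁) ⊓ cj a Q ≤ Y₁ := by
    rintro x ⟨hx, hxQ⟩
    obtain ⟨u, hu, v, hv, rfl⟩ := mem_sup_of_coe_eq hprod hx
    exact Y₁.mul_mem (i1 ⟨hu, by simpa using (cj a Q).mul_mem hxQ ((cj a Q).inv_mem (hY1Q hv))⟩) hv
  have c4 := card_mul_card_le (Q ⊓ cj a Q) S
  have c5 : Nat.card ((Q ⊓ cj a Q) ⊔ S : Subgroup G) ≤ Nat.card (centralizer (S : Set G)) :=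
    card_le_of_le (sup_le (cL ▸ centralizer_le hSL) hSc)
  have c6 : Nat.card ((Q ⊓ cj a Q) ⊓ S : Subgroup G) ≤ Nat.card (Y ⊓ Y₁ : Subgroup G) :=
    card_le_of_le (le_inf
      (le_trans (le_inf (inf_le_right.trans hSL) (inf_le_left.trans inf_le_left)) hLQ)
      (le_trans (le_inf (inf_le_right.trans hSL) (inf_le_left.trans inf_le_right)) hLQ1))
  have c7 := hQ.card_mul hQ1
  rw [eY1, ← hY, ← hcard] at c7
  have c8 : Nat.card Q ≤ Nat.card (centralizer (S : Set G)) :=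
    Nat.le_of_mul_le_mul_right (c7 ▸ c4.trans (Nat.mul_le_mul c5 c6)) Nat.card_pos
  have hSL' : CDL S := hQ.1.1.of_le (by
    rw [cdm, cdm, ← hY, hcard, mul_comm]; exact Nat.mul_le_mul_left _ c8)
  have cS := hSL'.centralizer
  have hcl : CL (centralizer (S : Set G)) := ⟨cS.1, by rw [cS.2]; exact hSc⟩
  refine ⟨centralizer (S : Set G), hQ.of_card hcl ?_, ?_, fun y hy => ?_⟩
  · have := hQ.1.1 S
    rw [cdm, cdm, ← hY, hcard, mul_comm] at this
    exact Nat.le_of_mul_le_mul_right this Nat.card_pos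
  · rw [cS.2]
    refine le_antisymm (le_inf ?_ inf_le_right) (le_inf (by rw [inf_comm]; exact le_sup_right)
      inf_le_right)
    rintro x ⟨hx, hxY⟩
    obtain ⟨d, hd, v, hv, rfl⟩ :=
      (mem_sup_iff_of_le_normalizer' (hY0D.trans (centralizer_le_normalizer' D))).1 hx
    exact Y₁.mul_mem (hDY ⟨hd, by simpa using Y.mul_mem hxY (Y.inv_mem hv.1)⟩) hv.2
  · rw [cS.2]; exact mem_sup_left (hmem y hy)

theorem exists_mcl_normalized (hG : Group.IsNilpotent G) : ∃ Q : Subgroup G, MCL Q ∧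
    ∀ A : Subgroup G, IsMulCommutative A →
      ((centralizer (Q : Set G) ⊔ A : Subgroup G) : Set G) =
        (centralizer (Q : Set G) : Set G) * (A : Set G) → A ≤ normalizer (Q : Set G) := by
  obtain ⟨c, hc⟩ := Subgroup.nilpotent_iff_lowerCentralSeries.1 hG
  let γ : ℕ → Subgroup G := (⊤ : Subgroup G).lowerCentralSeries
  have : Nonempty {Q : Subgroup G // MCL Q} := exists_mcl.elim fun Q hQ => ⟨⟨Q, hQ⟩⟩
  obtain ⟨⟨Q, hQ⟩, hmax⟩ := Finite.exists_max fun Q : {Q : Subgroup G // MCL Q} =>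
    ∑ i ∈ Finset.range (c + 1), Nat.card (centralizer (Q.1 : Set G) ⊓ γ i : Subgroup G)
  refine ⟨Q, hQ, fun A hA hprod a ha => ?_⟩
  have hYc : IsMulCommutative (centralizer (Q : Set G)) :=
    le_centralizer_iff_isMulCommutative.1 hQ.1.comm
  obtain ⟨Q', hQ', e1, e2⟩ := mcl_replace hQ (a := a) (ito hYc hA hprod)
    (left_le_normalizer_commutator _ _) (fun y hy => by
      rw [commutator_comm, ← commutatorElement_def]; exact commutator_mem_commutator ha hy)
  set Y := centralizer (Q : Set G) with hY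
  set Y' := centralizer (Q' : Set G) with hY'
  let r : ℕ → ℕ := fun i => Y.relIndex (cj a Y ⊓ γ i)
  let s : ℕ → ℕ := fun i => Y.relIndex (Y' ⊓ γ i)
  let t : ℕ → ℕ := fun i => Nat.card (cj a Y ⊓ Y ⊓ γ i : Subgroup G)
  have hγ : ∀ i, cj a (γ i) = γ i := fun i => cj_eq_of_normal a _
  have f1 : ∀ i, Nat.card (Y ⊓ γ i : Subgroup G) = t i * r i := fun i => by
    rw [← card_cj a, cj_inf, hγ, ← card_inf_mul_relIndex Y, ← inf_assoc, inf_comm Y]
  have f2 : ∀ i, Nat.card (Y' ⊓ γ i : Subgroup G) = t i * s i := fun i => by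
    rw [← card_inf_mul_relIndex Y, ← inf_assoc, inf_comm Y, e1]
  have f3 : ∀ i, r i ≤ s (i + 1) := fun i => by
    refine relIndex_le_of_forall ?_
    rintro x ⟨hx, hxγ⟩
    obtain ⟨y, hy, rfl⟩ := mem_cj'.1 hx
    have hyγ : y ∈ γ i := by rw [← conj_mem_cj_iff (g := a), hγ]; exact hxγ
    refine ⟨a * y * a⁻¹ * y⁻¹, ⟨e2 y hy, ?_⟩, by simpa [mul_assoc] using hy⟩
    change _ ∈ ⁅γ i, (⊤ : Subgroup G)⁆
    rw [commutator_comm, ← commutatorElement_def]
    exact commutator_mem_commutator (mem_top a) hyγ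
  have f4 : ∀ i, r (i + 1) ≤ r i := fun i => relIndex_le_of_forall fun x hx =>
    ⟨x, ⟨hx.1, Subgroup.lowerCentralSeries_antitone _ (Nat.le_succ i) hx.2⟩, by simp⟩
  have ht : ∀ i, 0 < t i := fun i => Nat.card_pos
  have f5 : ∀ i, r i ≤ s i := by
    rintro (_ | i)
    · have h1 := f1 0
      have h2 := f2 0
      simp only [γ, Subgroup.lowerCentralSeries_zero, inf_top_eq] at h1 h2
      rw [(hQ'.card_eq hQ).2, h1] at h2
      exact (Nat.eq_of_mul_eq_mul_left (ht 0) h2).le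
    · exact (f4 i).trans (f3 i)
  have f6 : ∀ i ∈ Finset.range (c + 1),
      Nat.card (Y ⊓ γ i : Subgroup G) ≤ Nat.card (Y' ⊓ γ i : Subgroup G) := fun i _ => by
    rw [f1, f2]; exact Nat.mul_le_mul_left _ (f5 i)
  have f7 := (Finset.sum_eq_sum_iff_of_le f6).1
    (le_antisymm (Finset.sum_le_sum f6) (hmax ⟨Q', hQ'⟩))
  have f8 : ∀ i ≤ c, r 0 ≤ r i := by
    intro i
    induction i with
    | zero => exact fun _ => le_rfl
    | succ i ih =>
      intro hi
      have := f7 (i + 1) (Finset.mem_range.2 (by omega))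
      rw [f1, f2] at this
      rw [Nat.eq_of_mul_eq_mul_left (ht _) this]
      exact (ih (by omega)).trans (f3 i)
  have f9 := f8 c le_rfl
  simp only [r, γ, hc, inf_bot_eq, relIndex_bot_right, Subgroup.lowerCentralSeries_zero, inf_top_eq] at f9
  have f10 : Y.relIndex (cj a Y) = 1 := le_antisymm f9 (Nat.pos_of_ne_zero
    (index_ne_zero_of_finite (H := Y.subgroupOf (cj a Y))))
  rw [relIndex_eq_one] at f10
  rw [← hQ.1.1.centralizer.2]
  exact normalizer_le_normalizer_centralizer _ (mem_normalizer_of_cj_le f10)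

end Cfsg.Agent.LocalEven
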