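import Mathlib
import Cfsg.Prelude.Def_DStar
import Cfsg.Agent.LocalEven.CD
import Cfsg.Agent.Transfer.S4Free
import Cfsg.Agent.PGrp.Frattini

/-! The characteristic subgroup `D*(S)`; Thompson's replacement lemma. -/

namespace Cfsg.Agent.LocalEven

open Subgroup
open scoped commutatorElement

variable {G : Type*} [Group G] {p : ℕ}

theorem class_two_of {A C : Subgroup G} {x : G} (hA : A ≤ centralizer (A : Set G))
    (h1 : ⁅A, zpowers x⁆ ≤ C) (h2 : C ≤ centralizer (A : Set G))
    (h3 : C ≤ centralizer (zpowers x : Set G)) :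
    ⁅⁅A ⊔ zpowers x, A ⊔ zpowers x⁆, A ⊔ zpowers x⁆ = ⊥ := by
  have n1 := (le_centralizer_iff.1 h2).trans (centralizer_le_normalizer' C)
  have n2 := (le_centralizer_iff.1 h3).trans (centralizer_le_normalizer' C)
  have h4 : ⁅A ⊔ zpowers x, A ⊔ zpowers x⁆ ≤ C := commutator_sup_left_le
    (commutator_sup_right_le ((commutator_eq_bot_iff.2 hA).trans_le bot_le) h1 n1 n2)
    (commutator_sup_right_le (Subgroup.commutator_comm A (zpowers x) ▸ h1) ((commutator_eq_bot_iff.2
      (le_centralizer_iff_isMulCommutative.2 inferInstance)).trans_le bot_le) n1 n2) n1 n2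
  refine commutator_eq_bot_iff.2 (h4.trans ?_)
  rw [centralizer_sup']
  exact le_inf h2 h3

variable [Finite G] [Fact p.Prime]

theorem dStarFamily_le_centralizer (hG : IsPGroup p G) {A B : Subgroup G} (hA : A ∈ dStarFamily G)
    (hB : IsMulCommutative B) (hn : A ≤ normalizer (B : Set G)) : A ≤ centralizer (B : Set G) := by
  by_contra hne
  have hAc := le_centralizer_iff_isMulCommutative.2 hA.1
  have hBc := le_centralizer_iff_isMulCommutative.2 hB
  set C := B ⊓ centralizer (A : Set G) with hC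
  have hAC : (A ⊔ C) ⊓ B = C := by
    rw [inf_sup_of_le_normalizer' ((le_centralizer_iff.1 inf_le_right).trans
      (centralizer_le_normalizer' C)) inf_le_left]
    exact sup_eq_right.2 (le_inf inf_le_right (inf_le_left.trans hAc))
  have hlt : A ⊔ C < A ⊔ B := lt_of_le_of_ne (sup_le_sup_left inf_le_left A) fun h0 =>
    hne (le_centralizer_iff.1 (((le_inf (le_sup_right.trans h0.ge) le_rfl).trans hAC.le).trans
      inf_le_right))
  obtain ⟨x, hx, h1, h2⟩ := exists_mem_normalizer_of_lt (hG.to_subgroup _) hlt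
  obtain ⟨a, ha, b, hb, rfl⟩ := (mem_sup_iff_of_le_normalizer hn).1 hx
  have h3 : b ∈ normalizer ((A ⊔ C : Subgroup G) : Set G) :=
    (mul_mem_cancel_left (le_normalizer (mem_sup_left ha))).1 h1
  refine h2 (mul_mem (mem_sup_left ha) (mem_sup_right ⟨hb, fun y hy => hA.2 b
    (class_two_of (C := C) hAc (le_trans (le_inf ?_ ?_) hAC.le) inf_le_right
      (inf_le_left.trans (hBc.trans (centralizer_le (zpowers_le.2 hb))))) y hy⟩))
  · exact (commutator_mono le_sup_left le_rfl).trans
      (commutator_le_left_of_le_normalizer (zpowers_le.2 h3))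
  · exact (commutator_mono le_rfl (zpowers_le.2 hb)).trans (commutator_le_right_of_le_normalizer hn)

theorem dStar_le_of_scn (hG : IsPGroup p G) {B : Subgroup G} [B.Normal] (hB : IsMulCommutative B)
    (hc : centralizer (B : Set G) = B) : dStar G ≤ B :=
  sSup_le fun _ hA => hc ▸ dStarFamily_le_centralizer hG hA hB
    (le_top.trans (normalizer_eq_top B).ge)

theorem dStar_mem (hG : IsPGroup p G) : dStar G ∈ dStarFamily G := by
  haveI := hG.isNilpotent
  obtain ⟨B, -, hB, h1, h2⟩ := PGrp.exists_scn_ge (⊥ : Subgroup G) inferInstance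
  refine ⟨isMulCommutative_of_le h1 (dStar_le_of_scn hG h1 h2), fun x hx a ha => ?_⟩
  have : dStar G ≤ centralizer ({x} : Set G) := sSup_le fun A hA b hb => by
    have h3 : A ⊔ zpowers x ≤ dStar G ⊔ zpowers x := sup_le_sup_right (le_sSup hA) _
    exact mem_centralizer_singleton.2 (hA.2 x (le_bot_iff.1 (hx ▸ commutator_mono
      (commutator_mono h3 h3) h3)) b hb).symm
  exact (mem_centralizer_singleton.1 (this ha)).symm

omit [Finite G] [Fact p.Prime] in
theorem dStarFamily_cj {A : Subgroup G} (hA : A ∈ dStarFamily G) (g : G) :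
    cj g A ∈ dStarFamily G := by
  refine ⟨isMulCommutative_cj g hA.1, fun x hx a ha => ?_⟩
  have h1 := hA.2 (g⁻¹ * x * g⁻¹⁻¹) (by
    rw [← cj_zpowers, ← cj_inv_cj g A, ← cj_sup, ← cj_commutator, ← cj_commutator, hx, cj_bot])
    _ (mem_cj.1 ha)
  calc a * x = g * (g⁻¹ * a * g * (g⁻¹ * x * g⁻¹⁻¹)) * g⁻¹ := by group
    _ = x * a := by rw [h1]; group

omit [Finite G] [Fact p.Prime] in
theorem dStar_normal : (dStar G).Normal := normal_of_cj_le fun g =>
  cj_le_iff.2 (sSup_le fun _ hA => cj_le_iff.1 (le_sSup (dStarFamily_cj hA g)))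

omit [Fact p.Prime] in
/-- Thompson's replacement lemma. -/
theorem thompson_lemma {A M : Subgroup G} (hA : A ∈ maxAbelianSubgroups G) {s : G}
    (hM : M = closure {y | ∃ a ∈ A, y = s⁻¹ * (a * s * a⁻¹)}) (hc : IsMulCommutative M) :
    M ⊔ (A ⊓ centralizer (M : Set G)) ∈ maxAbelianSubgroups G := by
  have hAc := le_centralizer_iff_isMulCommutative.2 hA.1
  have hMc := le_centralizer_iff_isMulCommutative.2 hc
  have hf : ∀ a ∈ A, s⁻¹ * (a * s * a⁻¹) ∈ M := fun a ha => hM ▸ subset_closure ⟨a, ha, rfl⟩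
  have h1 := Transfer.card_le_mul_of_forall (A := A) (B := A ⊓ centralizer (M : Set G)) (W := M)
    (C := M ⊓ centralizer (A : Set G)) inf_le_left inf_le_left (fun a => s⁻¹ * (a * s * a⁻¹)) hf
    (fun a ha b hb h => by
      have hw := mul_mem (inv_mem ha) hb
      refine ⟨hw, le_centralizer_iff.1 (show M ≤ centralizer (zpowers (a⁻¹ * b) : Set G) from ?_)
        (mem_zpowers _)⟩
      have h2 : s⁻¹ * (a⁻¹ * b * s * (a⁻¹ * b)⁻¹) ∈ centralizer (A : Set G) := by
        have := conj_mem_of_mem_normalizer (centralizer_le_normalizer' _ (le_centralizer_iff.1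
          (le_refl (centralizer (A : Set G))) (inv_mem ha))) h.2
        convert this using 1; group
      generalize a⁻¹ * b = w at hw h2
      rw [hM, closure_le, centralizer_zpowers]
      rintro _ ⟨c, hc', rfl⟩
      have e1 := h2 c hc'
      have e2 := hMc (hf w hw) _ (hf c hc')
      have e3 := hAc hw c hc'
      refine mem_centralizer_singleton.2 (mul_left_cancel (a := s⁻¹ * (w * s * w⁻¹)) ?_)
      calc s⁻¹ * (w * s * w⁻¹) * (w * (s⁻¹ * (c * s * c⁻¹)))
          = s⁻¹ * ((w * c) * s * (w * c)⁻¹) * w := by group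
        _ = s⁻¹ * (c * s * c⁻¹) * (c * (s⁻¹ * (w * s * w⁻¹))) * c⁻¹ * w := by rw [← e3]; group
        _ = s⁻¹ * (c * s * c⁻¹) * (s⁻¹ * (w * s * w⁻¹)) * w := by rw [e1]; group
        _ = _ := by rw [e2, mul_assoc])
  have h2 := card_mul_card_le M (A ⊓ centralizer (M : Set G))
  have h3 : Nat.card (M ⊓ (A ⊓ centralizer (M : Set G)) : Subgroup G) ≤
      Nat.card (M ⊓ centralizer (A : Set G) : Subgroup G) :=
    card_le_of_le (inf_le_inf_left M (inf_le_left.trans hAc))
  refine ⟨le_centralizer_iff_isMulCommutative.1 ?_, fun B hB => (hA.2 B hB).trans ?_⟩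
  · rw [centralizer_sup']
    exact sup_le (le_inf hMc (le_centralizer_iff.1 inf_le_right))
      (le_inf inf_le_right (inf_le_left.trans (hAc.trans (centralizer_le inf_le_left))))
  · rw [mul_comm] at h2
    exact Nat.le_of_mul_le_mul_right (h1.trans (h2.trans (Nat.mul_le_mul_left _ h3))) Nat.card_pos

end Cfsg.Agent.LocalEven
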