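import Mathlib
import Cfsg.Prelude.Def_SubgroupEmbedding
import Cfsg.Agent.LocalEven.Iso

/-! Extremely closed subgroups. -/

namespace Cfsg.Agent.LocalEven

open Subgroup

variable {G : Type*} [Group G] [Finite G]

theorem exists_normal_of_meet_le {H M : Subgroup G} (hHM : H ≤ M)
    (hn : M ≤ normalizer (H : Set G)) (hc : ⁅M, M⁆ ≤ H)
    (h : ∀ g ∉ M, ∀ t ∈ M, g⁻¹ * t * g ∈ M → g⁻¹ * t * g ∈ H) :
    ∃ N : Subgroup G, N.Normal ∧ N ⊓ M = H ∧ N ⊔ M = ⊤ := by
  classical
  haveI : (H.subgroupOf M).Normal := normal_subgroupOf_of_le_normalizer hn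
  have hcomm : IsMulCommutative (M ⧸ H.subgroupOf M) := by
    refine Normal.quotient_commutative_iff_commutator_le.2 ?_
    rw [commutator_def, Subgroup.commutator_le]
    exact fun a _ b _ => hc (commutator_mem_commutator a.2 b.2)
  letI : CommGroup (M ⧸ H.subgroupOf M) :=
    { (inferInstance : Group (M ⧸ H.subgroupOf M)) with mul_comm := hcomm.1.1 }
  set φ := QuotientGroup.mk' (H.subgroupOf M) with hφ
  have key : ∀ m : M, MonoidHom.transfer φ (m : G) = φ m := by
    intro m
    haveI := Fintype.ofFinite (Quotient (MulAction.orbitRel (zpowers (m : G)) (G ⧸ M)))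
    rw [MonoidHom.transfer_eq_prod_quotient_orbitRel_zpowers_quot,
      Finset.prod_eq_single (Quotient.mk _ ((1 : G) : G ⧸ M))]
    · generalize hq : (Quotient.mk (MulAction.orbitRel (zpowers (m : G)) (G ⧸ M))
        ((1 : G) : G ⧸ M)).out = q
      have h1 : q = ((1 : G) : G ⧸ M) := by
        obtain ⟨⟨a, ha⟩, h2⟩ : q ∈ MulAction.orbit (zpowers (m : G)) ((1 : G) : G ⧸ M) := by
          rw [← MulAction.orbitRel_apply, ← hq]
          exact Quotient.mk_out _
        rw [← h2]
        exact QuotientGroup.eq.2 (by simpa using zpowers_le.2 m.2 ha)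
      have h2 : q.out ∈ M := by
        have := QuotientGroup.eq.1 (h1.symm.trans (QuotientGroup.out_eq' q).symm)
        simpa using this
      have h3 : Function.minimalPeriod ((m : G) • ·) q = 1 := by
        rw [Function.minimalPeriod_eq_one_iff_isFixedPt, h1]
        exact QuotientGroup.eq.2 (by simp)
      have h4 : φ (⟨q.out, h2⟩⁻¹ * m * ⟨q.out, h2⟩) = φ m := by
        rw [map_mul, map_mul, map_inv, inv_mul_cancel_comm]
      rw [← h4]
      congr 1
      exact Subtype.ext (by simp [h3])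
    · intro q _ hq
      refine (QuotientGroup.eq_one_iff _).2 (h _ (fun h0 => hq ?_) _ (pow_mem m.2 _)
        (QuotientGroup.out_conj_pow_minimalPeriod_mem M m q.out))
      rw [← q.out_eq, ← QuotientGroup.out_eq' q.out]
      congr 1
      exact QuotientGroup.eq.2 (by simpa using h0)
    · exact fun h0 => absurd (Finset.mem_univ _) h0
  refine ⟨(MonoidHom.transfer φ).ker, inferInstance, le_antisymm (fun x hx => ?_)
    (le_inf (fun x hx => ?_) hHM), eq_top_iff.2 fun g _ => ?_⟩
  · exact (QuotientGroup.eq_one_iff (⟨x, hx.2⟩ : M)).1 ((key ⟨x, hx.2⟩).symm.trans hx.1)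
  · exact (key ⟨x, hHM hx⟩).trans ((QuotientGroup.eq_one_iff (⟨x, hHM hx⟩ : M)).2 hx)
  · obtain ⟨m, hm⟩ := QuotientGroup.mk'_surjective _ (MonoidHom.transfer φ g)
    have : g * (m : G)⁻¹ ∈ (MonoidHom.transfer φ).ker := by
      rw [MonoidHom.mem_ker, map_mul, map_inv, key, hm, mul_inv_cancel]
    simpa using mul_mem (mem_sup_left this : _ ∈ (MonoidHom.transfer φ).ker ⊔ M) (mem_sup_right m.2)

theorem exists_normal_of_closed {H M : Subgroup G} (hHM : H ≤ M)
    (hcl : ∀ g : G, (H ⊔ cj g H) ⊓ M = H) (hH : ∀ K, H < K → K ≤ M → K = M) (hM : IsCoatom M) :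
    (H.Normal ∧ ∃ g ∉ M, ¬ M ⊓ cj g M ≤ H) ∨
      ∃ N : Subgroup G, N.Normal ∧ N ⊓ M = H ∧ N ⊔ M = ⊤ := by
  have hn : M ≤ normalizer (H : Set G) := fun m hm => mem_normalizer_of_cj_le
    ((le_inf le_sup_right (cj_le_of_mem hm hHM)).trans (hcl m).le)
  by_cases h : ∀ g ∉ M, M ⊓ cj g M ≤ H
  · refine Or.inr (exists_normal_of_meet_le hHM hn ?_ fun g hg t ht h1 => h g⁻¹ (by simpa using hg)
      ⟨h1, by simpa using conj_mem_cj (g := g⁻¹) ht⟩)
    by_cases h0 : M ≤ H
    · exact (commutator_le_of_le le_rfl le_rfl).trans h0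
    obtain ⟨x, hx, hxH⟩ := SetLike.not_le_iff_exists.1 h0
    have h1 : H ⊔ zpowers x = M := hH _ (lt_of_le_of_ne le_sup_left fun h1 =>
      hxH (h1 ▸ mem_sup_right (mem_zpowers x))) (sup_le hHM (zpowers_le.2 hx))
    have hx' := zpowers_le.2 (hn hx)
    rw [← h1]
    refine commutator_sup_left_le (commutator_le_left_of_le_normalizer (sup_le le_normalizer hx'))
      (commutator_sup_right_le (commutator_le_right_of_le_normalizer hx') ?_ le_normalizer hx')
      le_normalizer hx'
    exact (commutator_eq_bot_iff.2 (le_centralizer_iff_isMulCommutative.2 inferInstance)).trans_le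
      bot_le
  push Not at h
  obtain ⟨g, hg, h1⟩ := h
  have h2 : H ⊔ (M ⊓ cj g M) = M := hH _ (lt_of_le_of_ne le_sup_left fun h2 =>
    h1 (le_sup_right.trans h2.ge)) (sup_le hHM inf_le_left)
  have h3 : M ≤ normalizer ((H ⊔ cj g H : Subgroup G) : Set G) := h2.ge.trans (sup_le
    (le_sup_left.trans le_normalizer) (le_normalizer_sup (inf_le_left.trans hn)
      (inf_le_right.trans (by rw [← cj_normalizer]; exact cj_mono g hn))))
  by_cases h4 : H ⊔ cj g H ≤ M
  · refine Or.inl ⟨normalizer_eq_top_iff.1 (hM.2 _ (lt_of_le_of_ne hn fun h5 => hg ?_)), g, hg, h1⟩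
    rw [h5]
    exact mem_normalizer_of_cj_le ((le_inf le_sup_right (le_sup_right.trans h4)).trans (hcl g).le)
  · have h5 : (H ⊔ cj g H) ⊔ M = ⊤ := hM.2 _ (lt_of_le_of_ne le_sup_right fun h5 =>
      h4 (le_sup_left.trans h5.ge))
    exact Or.inr ⟨_, normalizer_eq_top_iff.1 (eq_top_iff.2 (h5.ge.trans (sup_le le_normalizer h3))),
      hcl g, h5⟩

theorem isSylowIn_of_extClosed {p : ℕ} [Fact p.Prime] {H : Subgroup G} (hH : IsPGroup p H)
    (hcl : IsExtremelyClosed H) (g : G) : IsSylowIn p H (H ⊔ cj g H) := by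
  refine IsSylowIn.of_normalizer ?_
  have : (H ⊔ cj g H) ⊓ normalizer (H : Set G) = H := hcl g
  rw [this]
  exact IsSylowIn.self hH

theorem normalizer_le_of_extClosed {p : ℕ} [Fact p.Prime] {H Q : Subgroup G} (hH : IsPGroup p H)
    (hcl : IsExtremelyClosed H) (hQ : IsPGroup p Q) (hle : H ≤ Q) :
    normalizer (Q : Set G) ≤ normalizer (H : Set G) := fun g hg =>
  mem_normalizer_of_cj_le (le_sup_right.trans ((isSylowIn_of_extClosed hH hcl g).eq_of_isPGroup
    (hQ.to_le (sup_le hle (cj_le_of_mem_normalizer hg hle)))).ge)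

end Cfsg.Agent.LocalEven
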